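import Mathlib

/-!
A Singer cycle of `SL₃(q)`: an element of order `q² + q + 1` whose centraliser in `SL₃(q)` is the
cyclic group it generates, and which is diagonalised by an element of `SL₃` of the cubic extension.
-/

set_option autoImplicit false
set_option linter.unusedSectionVars false

open Matrix
open scoped MatrixGroups

namespace CfsgLib.ClassicalLinear.SingerThree

variable {F K : Type*} [Field F] [Fintype F] [Field K] [Finite K] [Algebra F K]

theorem natCard_eq (hK : Module.finrank F K = 3) : Nat.card K = Fintype.card F ^ 3 := by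
  rw [Module.natCard_eq_pow_finrank (K := F) (V := K), hK, Nat.card_eq_fintype_card]

/-- A unit of order `q² + q + 1` of the cubic extension. -/
theorem exists_orderOf_eq (hK : Module.finrank F K = 3) :
    ∃ α : Kˣ, orderOf α = Fintype.card F ^ 2 + Fintype.card F + 1 := by
  obtain ⟨γ, hγ⟩ := IsCyclic.exists_ofOrder_eq_natCard (α := Kˣ)
  rw [Nat.card_units, natCard_eq (F := F) hK] at hγ
  obtain ⟨m, hm⟩ : ∃ m, Fintype.card F = m + 2 :=
    ⟨Fintype.card F - 2, by have := Fintype.one_lt_card (α := F); omega⟩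
  have hfac : Fintype.card F ^ 3 - 1 =
      (Fintype.card F ^ 2 + Fintype.card F + 1) * (Fintype.card F - 1) := by
    rw [hm, show m + 2 - 1 = m + 1 by omega]
    apply Nat.sub_eq_of_eq_add
    ring
  refine ⟨γ ^ (Fintype.card F - 1), ?_⟩
  rw [orderOf_pow_of_dvd (by omega) (by rw [hγ, hfac]; exact Dvd.intro_left _ rfl), hγ, hfac,
    Nat.mul_div_cancel _ (by omega)]

/-- The Frobenius power as an algebra homomorphism. -/
noncomputable def frob (F K : Type*) [Field F] [Fintype F] [Field K] [Algebra F K] (j : ℕ) :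
    K →ₐ[F] K :=
  (FiniteField.frobeniusAlgHom F K) ^ j

theorem frob_apply (j : ℕ) (x : K) : frob F K j x = x ^ Fintype.card F ^ j := by
  rw [frob, AlgHom.coe_pow, FiniteField.coe_frobeniusAlgHom, pow_iterate]

variable (b : Module.Basis (Fin 3) F K)

/-- The conjugates of a basis. -/
noncomputable def conjMat : Matrix (Fin 3) (Fin 3) K :=
  Matrix.of fun j i => frob F K (j : ℕ) (b i)

theorem conjMat_mul_coord (x : Fin 3 → K) (M : Matrix (Fin 3) (Fin 3) F)
    (h : ∀ i, ∑ k, M k i • b k = x i) :
    conjMat b * M.map (algebraMap F K) = Matrix.of fun (j : Fin 3) i => frob F K (j : ℕ) (x i) := by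
  ext j i
  simp only [Matrix.mul_apply, Matrix.map_apply, conjMat, Matrix.of_apply]
  rw [← h i, map_sum]
  exact Finset.sum_congr rfl fun k _ => by rw [map_smul, Algebra.smul_def, mul_comm]

theorem conjMat_leftMul (β : K) :
    conjMat b * (Algebra.leftMulMatrix b β).map (algebraMap F K) =
      Matrix.diagonal (fun j : Fin 3 => β ^ Fintype.card F ^ (j : ℕ)) * conjMat b := by
  rw [conjMat_mul_coord b (fun i => β * b i)]
  · ext j i
    simp [Matrix.diagonal_mul, conjMat, frob_apply, mul_pow]
  · intro i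
    simp only [Algebra.leftMulMatrix_eq_repr_mul]
    exact b.sum_repr _

/-- Coordinates of the powers of an element. -/
noncomputable def powCoord (α : K) : Matrix (Fin 3) (Fin 3) F :=
  Matrix.of fun i m => b.repr (α ^ (m : ℕ)) i

theorem det_conjMat_mul_powCoord_ne_zero {α : Kˣ}
    (hα : orderOf α = Fintype.card F ^ 2 + Fintype.card F + 1) :
    (conjMat b * (powCoord b (α : K)).map (algebraMap F K)).det ≠ 0 := by
  rw [conjMat_mul_coord b (fun m : Fin 3 => (α : K) ^ (m : ℕ)) (powCoord b (α : K))
    (fun m => b.sum_repr _)]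
  have e : (Matrix.of fun (j : Fin 3) (m : Fin 3) => frob F K (j : ℕ) ((α : K) ^ (m : ℕ))) =
      Matrix.vandermonde fun j : Fin 3 => (α : K) ^ Fintype.card F ^ (j : ℕ) := by
    ext j m
    simp [frob_apply, ← pow_mul, mul_comm]
  rw [e, Matrix.det_vandermonde_ne_zero_iff]
  intro i j hij
  dsimp only at hij
  have h1 : ∀ k : Fin 3, Fintype.card F ^ (k : ℕ) < orderOf α := by
    intro k
    rw [hα]
    have h0 := Fintype.one_lt_card (α := F)
    obtain ⟨k, hk⟩ := k
    interval_cases k <;> simp only [pow_zero, pow_one] <;> nlinarith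
  have h2 := pow_injOn_Iio_orderOf (h1 i) (h1 j) (Units.ext (by simpa using hij))
  exact Fin.ext (Nat.pow_right_injective Fintype.one_lt_card h2)

variable {α : Kˣ} (hα : orderOf α = Fintype.card F ^ 2 + Fintype.card F + 1)
include hα

theorem det_conjMat_ne_zero : (conjMat b).det ≠ 0 := fun h =>
  det_conjMat_mul_powCoord_ne_zero b hα (by rw [Matrix.det_mul, h, zero_mul])

theorem det_leftMul (β : K) :
    algebraMap F K (Algebra.leftMulMatrix b β).det =
      β ^ (Fintype.card F ^ 2 + Fintype.card F + 1) := by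
  have h := congrArg Matrix.det (conjMat_leftMul b β)
  rw [Matrix.det_mul, Matrix.det_mul, Matrix.det_diagonal, mul_comm (Finset.univ.prod _)] at h
  rw [RingHom.map_det]
  refine (mul_left_cancel₀ (det_conjMat_ne_zero b hα) h).trans ?_
  simp [Fin.prod_univ_three, pow_add]
  ring

theorem det_leftMul_self : (Algebra.leftMulMatrix b (α : K)).det = 1 := by
  apply (algebraMap F K).injective
  rw [det_leftMul b hα, map_one, ← Units.val_pow_eq_pow_val, ← hα, pow_orderOf_eq_one,
    Units.val_one]

/-- The commutant of the Singer matrix consists of multiplications. -/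
theorem eq_leftMul_of_commute {h : Matrix (Fin 3) (Fin 3) F}
    (hc : Commute h (Algebra.leftMulMatrix b (α : K))) : ∃ β : K, h = Algebra.leftMulMatrix b β := by
  have hQ : (powCoord b (α : K)).det ≠ 0 := fun h0 =>
    det_conjMat_mul_powCoord_ne_zero b hα (by
      rw [Matrix.det_mul, ← RingHom.mapMatrix_apply, ← RingHom.map_det, h0, map_zero, mul_zero])
  set e : Fin 3 → F := ⇑(b.repr 1) with he
  refine ⟨b.equivFun.symm (h *ᵥ e), ?_⟩
  set β := b.equivFun.symm (h *ᵥ e) with hβdef
  have hβ : (b.repr β : Fin 3 → F) = h *ᵥ e := by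
    rw [← b.equivFun_apply, hβdef, LinearEquiv.apply_symm_apply]
  have hcol : h * powCoord b (α : K) = Algebra.leftMulMatrix b β * powCoord b (α : K) := by
    ext i m
    have e1 : ∀ x : K, Algebra.leftMulMatrix b x *ᵥ e = b.repr x := fun x => by
      rw [he, Algebra.leftMulMatrix_mulVec_repr, mul_one]
    have hp : (fun i => powCoord b (α : K) i m) = b.repr ((α : K) ^ (m : ℕ)) := rfl
    have h2 : h *ᵥ (fun i => powCoord b (α : K) i m) =
        Algebra.leftMulMatrix b β *ᵥ (fun i => powCoord b (α : K) i m) := by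
      rw [hp, Algebra.leftMulMatrix_mulVec_repr, mul_comm, ← Algebra.leftMulMatrix_mulVec_repr,
        hβ, ← e1, mulVec_mulVec, mulVec_mulVec, map_pow, (hc.pow_right _).eq]
    exact congrFun h2 i
  exact (Matrix.isUnit_iff_isUnit_det _).2 (Ne.isUnit hQ) |>.mul_left_inj.1 hcol

/-- The Singer cycle. -/
noncomputable def singer : SL(3, F) := ⟨Algebra.leftMulMatrix b (α : K), det_leftMul_self b hα⟩

theorem coe_singer : (singer b hα : Matrix (Fin 3) (Fin 3) F) = Algebra.leftMulMatrix b (α : K) :=
  rfl

theorem orderOf_singer : orderOf (singer b hα) = Fintype.card F ^ 2 + Fintype.card F + 1 := by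
  rw [← hα]
  refine orderOf_eq_orderOf_iff.2 fun n => ?_
  have e : (singer b hα ^ n).1 = Algebra.leftMulMatrix b ((α : K) ^ n) :=
    (Matrix.SpecialLinearGroup.coe_pow _ n).trans (map_pow _ _ n).symm
  refine Iff.trans (Subtype.ext_iff.trans ?_) Units.ext_iff.symm
  rw [e, Units.val_pow_eq_pow_val, Units.val_one,
    ← (Algebra.leftMulMatrix_injective b).eq_iff (a := (α : K) ^ n) (b := 1), map_one]
  rfl

/-- The Singer cycle generates its centraliser. -/
theorem mem_zpowers_of_commute {h : SL(3, F)} (hc : Commute h (singer b hα)) :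
    h ∈ Subgroup.zpowers (singer b hα) := by
  obtain ⟨β, hβ⟩ := eq_leftMul_of_commute b hα
    (h := (h : Matrix (Fin 3) (Fin 3) F)) (congrArg Subtype.val hc.eq)
  have hn : β ^ orderOf α = 1 := by
    rw [hα, ← det_leftMul b hα, ← hβ]
    exact (congrArg (algebraMap F K) h.2).trans (map_one _)
  have hprim : IsPrimitiveRoot (α : K) (orderOf α) :=
    IsPrimitiveRoot.coe_units_iff.2 (IsPrimitiveRoot.orderOf α)
  haveI : NeZero (orderOf α) := ⟨by rw [hα]; omega⟩
  obtain ⟨i, -, rfl⟩ := hprim.eq_pow_of_pow_eq_one hn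
  have : h = singer b hα ^ i :=
    Subtype.ext (hβ.trans ((map_pow _ _ i).trans (Matrix.SpecialLinearGroup.coe_pow (singer b hα) i).symm))
  rw [this]
  exact Subgroup.npow_mem_zpowers _ _

/-- The Singer cycle is diagonalised in `SL₃` of the extension. -/
theorem exists_diagonalizer : ∃ P : SL(3, K),
    (P : Matrix (Fin 3) (Fin 3) K) *
        (singer b hα : Matrix (Fin 3) (Fin 3) F).map (algebraMap F K) =
      Matrix.diagonal (fun j : Fin 3 => (α : K) ^ Fintype.card F ^ (j : ℕ)) *
        (P : Matrix (Fin 3) (Fin 3) K) := by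
  have hd := det_conjMat_ne_zero b hα
  let d : Fin 3 → K := ![(conjMat b).det⁻¹, 1, 1]
  refine ⟨⟨Matrix.diagonal d * conjMat b, ?_⟩, ?_⟩
  · rw [Matrix.det_mul, Matrix.det_diagonal, Fin.prod_univ_three]
    simp [d, hd]
  · show Matrix.diagonal d * conjMat b * _ = _
    rw [coe_singer, Matrix.mul_assoc, conjMat_leftMul, ← Matrix.mul_assoc, ← Matrix.mul_assoc,
      Matrix.diagonal_mul_diagonal, Matrix.diagonal_mul_diagonal]
    simp only [mul_comm]

end CfsgLib.ClassicalLinear.SingerThree
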